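import Mathlib
import Cfsg.Agent.CT8.NFa

/-! Basic tools for S1308: TI families, invariant Sylow subgroups, conjugation. -/

set_option autoImplicit false
set_option linter.unusedSectionVars false
set_option linter.unusedVariables false

namespace Cfsg.Agent.CT8

open Subgroup Cfsg.Agent.GT Cfsg.Agent.Inv Cfsg.Agent.Cmp
open scoped commutatorElement

variable {G : Type*} [Group G] [Finite G] {𝒦 : Set (Subgroup G)}

variable {K L : Subgroup G}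

theorem TI.eq_of_two (h : TI 𝒦) (hK : K ∈ 𝒦) (hL : L ∈ 𝒦) {x : G} (h1 : x ∈ K) (h2 : x ∈ L)
    (hx : Two x) (h0 : x ≠ 1) : K = L := by
  obtain ⟨n, hn⟩ := hx.exists_inv h0
  exact h.ti K hK L hL _ (pow_mem h1 n) (pow_mem h2 n) hn

theorem TI.eq_one (h : TI 𝒦) (hK : K ∈ 𝒦) (hL : L ∈ 𝒦) (hne : K ≠ L) {x : G} (h1 : x ∈ K)
    (h2 : x ∈ L) (hx : Two x) : x = 1 := by
  by_contra h0
  exact hne (h.eq_of_two hK hL h1 h2 hx h0)

theorem TI.mem_NN_of_conj (h : TI 𝒦) (hK : K ∈ 𝒦) {x g : G} (h1 : x ∈ K) (hx : Two x)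
    (h0 : x ≠ 1) (hg : g * x * g⁻¹ ∈ K) : g ∈ NN K :=
  map_conj_eq_self_iff.1 (h.eq_of_two (h.conj K hK g) hK (conj_mem_map_conj.2 h1) hg (hx.conj g)
    (by simpa using h0))

theorem TI.mem_NN (h : TI 𝒦) (hK : K ∈ 𝒦) {x g : G} (h1 : x ∈ K) (hx : Two x) (h0 : x ≠ 1)
    (hg : Commute g x) : g ∈ NN K :=
  h.mem_NN_of_conj hK h1 hx h0 (by rwa [conj_eq_of_comm hg])

theorem TI.odd_inf (h : TI 𝒦) (hK : K ∈ 𝒦) (hL : L ∈ 𝒦) (hne : K ≠ L) :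
    Odd (Nat.card ↥(K ⊓ L)) := by
  by_contra he
  obtain ⟨z, hz, hz2⟩ := exists_involution_mem_of_even (Nat.not_odd_iff_even.1 he)
  exact hne (h.ti K hK L hL z hz.1 hz.2 hz2)

theorem rl_of_two (hne : K ≠ L) {y : G} (h1 : y ∈ L) (hy : Two y) (h0 : y ≠ 1) (hn : y ∈ NN K) :
    Rl K L := by
  obtain ⟨n, h2⟩ := hy.exists_inv h0
  exact ⟨hne, _, pow_mem h1 n, h2, pow_mem hn n⟩

theorem TI.rl_symm (h : TI 𝒦) (hK : K ∈ 𝒦) (hL : L ∈ 𝒦) (hr : Rl K L) : Rl L K := by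
  obtain ⟨hne, y, hy, h2, hn⟩ := hr
  obtain ⟨g, rfl⟩ := h.trans L hL K hK
  obtain ⟨z, hz, hz2, hc⟩ := exists_inv_fixed_elt (.of_two h2) hn (conj_mem_map_conj.2 hy)
    (by rwa [orderOf_conj'])
  exact ⟨hne.symm, z, hz, hz2, h.mem_NN hL hy (.of_two h2) (ne_one_of_two h2) hc.symm⟩

theorem TI.comm_of_hc (h : TI 𝒦) (hK : K ∈ 𝒦) (hL : L ∈ 𝒦) (hc : HC K L) {x y : G} (hx : x ∈ K)
    (hy : y ∈ L) {Q : Subgroup G} (hQ : IsPGroup 2 Q) (hxQ : x ∈ Q) (hyQ : y ∈ Q) :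
    Commute x y := by
  have h1 := hc.comm_mem hx hy
  refine commutatorElement_eq_one_iff_commute.1 (h.eq_one hK hL hc.1 h1.1 h1.2 (.of_mem hQ ?_))
  rw [commutatorElement_def]
  exact mul_mem (mul_mem (mul_mem hxQ hyQ) (inv_mem hxQ)) (inv_mem hyQ)

theorem TI.mem_CC_of_hc (h : TI 𝒦) (hK : K ∈ 𝒦) (hL : L ∈ 𝒦) (hc : HC K L) {X : Subgroup G}
    (hX : IsPGroup 2 X) (hXK : X ≤ K) {y : G} (hy : y ∈ L) (hn : y ∈ NN X) : y ∈ CC X := by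
  refine mem_CC.2 fun x hx => ?_
  have h1 := hc.comm_mem (hXK hx) hy
  refine commutatorElement_eq_one_iff_commute.1 (h.eq_one hK hL hc.1 h1.1 h1.2 (.of_mem hX ?_))
  have := mul_mem hx (conj_mem_of_mem_normalizer hn (inv_mem hx))
  simpa only [commutatorElement_def, mul_assoc] using this

theorem TI.inf_le_Od (h : TI 𝒦) (hK : K ∈ 𝒦) (hL : L ∈ 𝒦) (hc : HC K L) : K ⊓ L ≤ Od K :=
  le_Od inf_le_left ((le_inf le_normalizer hc.2.1).trans inf_normalizer_le_normalizer_inf)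
    (h.odd_inf hK hL hc.1)

theorem syl_conj_of_syl {S S' : Subgroup G} (hS : Syl S K) (hS' : Syl S' K) :
    ∃ k ∈ K, S' = S ^ᶜ k := by
  obtain ⟨k, hk, h1⟩ := hS'.exists_conj hS.two hS.le
  refine ⟨k, hk, (eq_of_le_of_card_ge (map_conj_le_iff_forall.2 h1) ?_).symm⟩
  rw [card_map_conj]
  exact hS.card_le hS'.two hS'.le

theorem syl_card_eq {S S' : Subgroup G} (hS : Syl S K) (hS' : Syl S' K) :
    Nat.card S = Nat.card S' :=
  le_antisymm (hS'.card_le hS.two hS.le) (hS.card_le hS'.two hS'.le)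

theorem TI.syl_conj (h : TI 𝒦) (hK : K ∈ 𝒦) (hL : L ∈ 𝒦) {S S' : Subgroup G} (hS : Syl S K)
    (hS' : Syl S' L) : ∃ g : G, L = K ^ᶜ g ∧ S' = S ^ᶜ g := by
  obtain ⟨g, rfl⟩ := h.trans K hK L hL
  obtain ⟨k, hk, rfl⟩ := syl_conj_of_syl (hS.conj g) hS'
  exact ⟨k * g, by rw [map_conj_mul, map_conj_eq_of_mem hk], by rw [map_conj_mul]⟩

theorem TI.syl_card (h : TI 𝒦) (hK : K ∈ 𝒦) (hL : L ∈ 𝒦) {S S' : Subgroup G} (hS : Syl S K)
    (hS' : Syl S' L) : Nat.card S = Nat.card S' := by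
  obtain ⟨g, -, rfl⟩ := h.syl_conj hK hL hS hS'
  rw [card_map_conj]

theorem two_sup {X Y : Subgroup G} (hX : IsPGroup 2 X) (hY : IsPGroup 2 Y) (hn : Y ≤ NN X) :
    IsPGroup 2 ↥(X ⊔ Y) := hX.to_sup_of_normal_left' hY hn

/-- An invariant Sylow 2-subgroup containing a given invariant 2-subgroup. -/
theorem exists_inv_syl {X Y : Subgroup G} (hX : IsPGroup 2 X) (hn : X ≤ NN K) (hY : IsPGroup 2 Y)
    (hYK : Y ≤ K) (hXY : X ≤ NN Y) : ∃ S, Syl S K ∧ Y ≤ S ∧ X ≤ NN S := by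
  obtain ⟨P, h1, hP⟩ := exists_syl_ge (K := K ⊔ X) (two_sup hY hX hXY) (sup_le_sup_right hYK _)
  refine ⟨P ⊓ K, hP.inf le_sup_left (sup_le le_normalizer hn), le_inf (le_sup_left.trans h1) hYK,
    (le_inf ((le_sup_right.trans h1).trans le_normalizer) hn).trans
      inf_normalizer_le_normalizer_inf⟩

theorem exists_inv_syl' {X : Subgroup G} (hX : IsPGroup 2 X) (hn : X ≤ NN K) :
    ∃ S, Syl S K ∧ X ≤ NN S :=
  let ⟨S, h1, _, h2⟩ := exists_inv_syl hX hn (IsPGroup.of_bot (p := 2)) bot_le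
    (by rw [NN, normalizer_eq_top]; exact le_top)
  ⟨S, h1, h2⟩

theorem exists_conj_two {H X Y : Subgroup G} (hX : IsPGroup 2 X) (hXH : X ≤ H)
    (hY : IsPGroup 2 Y) (hYH : Y ≤ H) : ∃ c ∈ H, ∃ Q, Syl Q H ∧ X ^ᶜ c ≤ Q ∧ Y ≤ Q := by
  obtain ⟨Q, h1, hQ⟩ := exists_syl_ge hY hYH
  obtain ⟨c, hc, h2⟩ := hQ.exists_conj hX hXH
  exact ⟨c, hc, Q, hQ, map_conj_le_iff_forall.2 h2, h1⟩

theorem syl_of_card {S X : Subgroup G} (hS : Syl S K) (hX : IsPGroup 2 X) (hXK : X ≤ K)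
    (hc : Nat.card S ≤ Nat.card X) : Syl X K := by
  obtain ⟨Q, h1, hQ⟩ := exists_syl_ge hX hXK
  have : X = Q := eq_of_le_of_card_ge h1 ((hS.card_le hQ.two hQ.le).trans hc)
  exact this ▸ hQ

/-- A 2-group is Sylow in its product with a normalized group of odd order. -/
theorem syl_sup_odd {D Y : Subgroup G} (hD : Odd (Nat.card D)) (hY : IsPGroup 2 Y)
    (hn : Y ≤ NN D) : Syl Y (D ⊔ Y) := by
  refine ⟨le_sup_right, hY, fun e => hD.not_two_dvd_nat ?_⟩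
  rw [sup_comm, relIndex_sup_of_le_normalizer_left hn] at e
  exact e.trans (relIndex_dvd_card _ _)

/-- 2-subgroups of two members normalizing each other commute after an odd adjustment. -/
theorem TI.compat (h : TI 𝒦) (hK : K ∈ 𝒦) (hL : L ∈ 𝒦) (hc : HC K L) {X Y : Subgroup G}
    (hX : IsPGroup 2 X) (hXK : X ≤ K) (hY : IsPGroup 2 Y) (hYL : Y ≤ L) :
    ∃ d ∈ X ⊔ Y, d ∈ K ∧ d ∈ L ∧ Odd (orderOf d) ∧ X ≤ CC (Y ^ᶜ d) := by
  set D := (X ⊔ Y) ⊓ (K ⊓ L) with hD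
  have hKL : X ⊔ Y ≤ NN (K ⊓ L) := sup_le
    ((le_inf (hXK.trans le_normalizer) (hXK.trans hc.2.1)).trans inf_normalizer_le_normalizer_inf)
    ((le_inf (hYL.trans hc.2.2) (hYL.trans le_normalizer)).trans inf_normalizer_le_normalizer_inf)
  have hn : X ⊔ Y ≤ NN D := (le_inf le_normalizer hKL).trans inf_normalizer_le_normalizer_inf
  have ho : Odd (Nat.card D) := (h.odd_inf hK hL hc.1).of_dvd_nat (card_dvd_of_le inf_le_right)
  have hYn : Y ≤ NN D := le_sup_right.trans hn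
  have hXn : X ≤ NN (D ⊔ Y) := fun x hx => by
    refine mem_normalizer_of_map_conj_le ?_
    rw [map_conj_sup, map_conj_eq_of_mem_norm (hn (mem_sup_left hx))]
    refine sup_le le_sup_left (map_conj_le_iff_forall.2 fun y hy => ?_)
    have h1 : ⁅x, y⁆ ∈ D := mem_inf.2 ⟨by
      rw [commutatorElement_def]
      exact mul_mem (mul_mem (mul_mem (mem_sup_left hx) (mem_sup_right hy))
        (inv_mem (mem_sup_left hx))) (inv_mem (mem_sup_right hy)), hc.comm_mem (hXK hx) (hYL hy)⟩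
    have := mul_mem_sup h1 hy
    rwa [commutatorElement_def, inv_mul_cancel_right] at this
  obtain ⟨S, hS, hXS⟩ := exists_inv_syl' hX hXn
  obtain ⟨k, hk, rfl⟩ := syl_conj_of_syl (syl_sup_odd ho hY hYn) hS
  obtain ⟨d, hd, y, hy, rfl⟩ := exists_mul_of_mem_sup hYn hk
  rw [map_conj_mul, map_conj_eq_of_mem hy] at hXS
  refine ⟨d, hd.1, hd.2.1, hd.2.2, ho.of_dvd_nat (orderOf_dvd_natCard D hd), fun x hx => ?_⟩
  exact h.mem_CC_of_hc hL hK hc.symm (hY.map _) (map_conj_le_of_mem hYL hd.2.2) (hXK hx) (hXS hx)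

theorem El.conj {X : Subgroup G} (h : El X) (g : G) : El (X ^ᶜ g) := by
  rintro _ ⟨x, hx, rfl⟩
  show g * x * g⁻¹ * (g * x * g⁻¹) = 1
  calc g * x * g⁻¹ * (g * x * g⁻¹) = g * (x * x) * g⁻¹ := by group
    _ = 1 := by rw [h x hx]; group

theorem Ab.conj {X : Subgroup G} (h : Ab X) (g : G) : Ab (X ^ᶜ g) := by
  rintro _ ⟨x, hx, rfl⟩ _ ⟨y, hy, rfl⟩
  exact comm_conj g (h x hx y hy)

theorem Gd.conj (h : Gd K) (g : G) : Gd (K ^ᶜ g) := by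
  obtain ⟨z, hz, h2, hs, U, hU, h3⟩ := h
  have e : K ^ᶜ g ⊓ centralizer ({g * z * g⁻¹} : Set G) = (K ⊓ centralizer ({z} : Set G)) ^ᶜ g := by
    rw [map_conj_inf, centralizer_singleton_conj]
  refine ⟨g * z * g⁻¹, conj_mem_map_conj.2 hz, by rwa [orderOf_conj'], ?_, U ^ᶜ g, ?_, ?_⟩
  · rw [e]
    exact Group.isSolvable_of_surjective
      (f := (conjEquiv (K ⊓ centralizer ({z} : Set G)) g).toMonoidHom)
      (conjEquiv (K ⊓ centralizer ({z} : Set G)) g).surjective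
  · rw [e]; exact hU.conj g
  · exact h3.imp (fun h => h.conj g) fun ⟨n, ⟨f⟩⟩ => ⟨n, ⟨(conjEquiv U g).symm.trans f⟩⟩

theorem Gen.conj (h : Gen K) (g : G) : Gen (K ^ᶜ g) := by
  refine (map_mono h).trans ?_
  rw [MonoidHom.map_closure]
  refine closure_mono ?_
  rintro _ ⟨x, hx, rfl⟩
  exact ⟨conj_mem_map_conj.2 hx.1, hx.2.conj g⟩

theorem Std.conj {A : Subgroup G} (h : Std A K) (g : G) : Std (A ^ᶜ g) (K ^ᶜ g) := by
  refine ⟨h.qs.map_of_injective (MulAut.conj g).injective, ?_, ?_, ?_⟩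
  · rw [CC_conj]; exact map_mono h.le
  · rw [CC_conj]
    rintro _ ⟨x, hx, rfl⟩ h2
    refine conj_mem_map_conj.2 (h.two x hx ?_)
    simpa [mul_assoc] using h2.conj g⁻¹
  · rw [NN_conj, NN_conj, h.nn]

theorem conj_sq_iff (g x : G) : g * x * g⁻¹ * (g * x * g⁻¹) = 1 ↔ x * x = 1 := by
  rw [show g * x * g⁻¹ * (g * x * g⁻¹) = g * (x * x) * g⁻¹ by group]
  simp

theorem Om.conj {E S : Subgroup G} (h : Om E S) (g : G) : Om (E ^ᶜ g) (S ^ᶜ g) := fun x => by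
  rw [mem_map_conj, mem_map_conj, h, ← conj_sq_iff g⁻¹ x, inv_inv]

theorem Pn.conj {E : Subgroup G} (h : Pn K E) (g : G) : Pn (K ^ᶜ g) (E ^ᶜ g) :=
  let ⟨S, h1, h2⟩ := h
  ⟨S ^ᶜ g, h1.conj g, h2.conj g⟩

theorem Core.conj {E Z : Subgroup G} (h : Core K E Z) (g : G) :
    Core (K ^ᶜ g) (E ^ᶜ g) (Z ^ᶜ g) := by
  refine ⟨map_mono h.le, h.ab.conj g, h.om.conj g, ?_, by rw [card_map_conj, h.cE],
    by rw [card_map_conj, h.cZ]⟩
  rintro _ ⟨z, hz, rfl⟩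
  refine ⟨z * z, h.sq z hz, ?_⟩
  show g * (z * z) * g⁻¹ = g * z * g⁻¹ * (g * z * g⁻¹)
  group

theorem Pt.conj {E : Subgroup G} (h : Pt K E) (g : G) : Pt (K ^ᶜ g) (E ^ᶜ g) :=
  let ⟨Z, h1⟩ := h
  ⟨Z ^ᶜ g, h1.conj g⟩

theorem conj_comm_elt (g x y : G) : g * ⁅x, y⁆ * g⁻¹ = ⁅g * x * g⁻¹, g * y * g⁻¹⁆ := by
  simp only [commutatorElement_def]; group

theorem comm_of_comm_conj {g x y : G} (h : Commute (g * x * g⁻¹) (g * y * g⁻¹)) : Commute x y := by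
  simpa [mul_assoc] using comm_conj g⁻¹ h

theorem le_CC_conj {X Y : Subgroup G} (h : X ≤ CC Y) (g : G) : X ^ᶜ g ≤ CC (Y ^ᶜ g) := by
  rw [CC_conj]; exact map_mono h

theorem le_NN_conj {X Y : Subgroup G} (h : X ≤ NN Y) (g : G) : X ^ᶜ g ≤ NN (Y ^ᶜ g) := by
  rw [NN_conj]; exact map_mono h

theorem Rt.conj {E Z F : Subgroup G} (h : Rt E Z F) (g : G) : Rt (E ^ᶜ g) (Z ^ᶜ g) (F ^ᶜ g) := by
  refine ⟨map_mono h.le, le_CC_conj h.cen g, le_CC_conj h.EF g, ?_, ?_⟩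
  · rintro _ ⟨z, hz, rfl⟩ _ ⟨f, hf, rfl⟩
    exact ⟨_, h.com z hz f hf, conj_comm_elt g z f⟩
  · rintro _ ⟨z, hz, rfl⟩ _ ⟨f, hf, rfl⟩ hc
    refine (h.ns z hz f hf (comm_of_comm_conj hc)).imp (fun e => ⟨z, e, rfl⟩) fun e => ?_
    rw [e, map_one]

theorem L3.conj {K1 K2 U V E : Subgroup G} (h : L3 K1 K2 K U V E) (g : G) :
    L3 (K1 ^ᶜ g) (K2 ^ᶜ g) (K ^ᶜ g) (U ^ᶜ g) (V ^ᶜ g) (E ^ᶜ g) := by
  refine ⟨fun e => h.n1 (map_conj_inj.1 e), fun e => h.n2 (map_conj_inj.1 e),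
    fun e => h.h1 ((hc_conj_iff g).1 e), fun e => h.h2 ((hc_conj_iff g).1 e), map_mono h.l1,
    map_mono h.l2, map_mono h.l, le_CC_conj h.EU g, le_CC_conj h.EV g, ?_, ?_⟩
  · rintro _ ⟨u, hu, rfl⟩ _ ⟨v, hv, rfl⟩
    exact ⟨_, h.com u hu v hv, conj_comm_elt g u v⟩
  · rintro _ ⟨u, hu, rfl⟩ _ ⟨v, hv, rfl⟩ hc
    refine (h.ns u hu v hv (comm_of_comm_conj hc)).imp (fun e => ?_) fun e => ?_ <;>
    rw [e, map_one]

theorem L3c.conj {K1 K2 U V E : Subgroup G} (h : L3c 𝒦 K1 K2 K U V E) (g : G) :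
    L3c 𝒦 (K1 ^ᶜ g) (K2 ^ᶜ g) (K ^ᶜ g) (U ^ᶜ g) (V ^ᶜ g) (E ^ᶜ g) :=
  ⟨h.toL3.conj g, h.cw, h.cw.conj _ h.m1 g, h.cw.conj _ h.m2 g, h.cw.conj _ h.m g, h.p1.conj g,
    h.p2.conj g, h.p.conj g⟩

theorem four_le_card {X : Subgroup G} (h : Four X) : 4 ≤ Nat.card X := by
  obtain ⟨a, ha, b, hb, h1, h2, h3, h4⟩ := h
  rw [← card_four_group h1 h2 h3 h4]
  exact card_le_of_le (sup_le (zpowers_le.2 ha) (zpowers_le.2 hb))

theorem four_of_el {X : Subgroup G} (he : El X) (h : 4 ≤ Nat.card X) : Four X := by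
  have : Fintype X := Fintype.ofFinite X
  obtain ⟨x, y, z, hxy, hxz, hyz⟩ := Fintype.two_lt_card_iff.1
    (show 2 < Fintype.card X by rw [← Nat.card_eq_fintype_card]; omega)
  have key : ∀ a b : X, a ≠ b → a ≠ 1 → b ≠ 1 → Four X := fun a b hab ha hb =>
    have o : ∀ a : X, a ≠ 1 → orderOf (a : G) = 2 := fun a ha =>
      orderOf_two_of (he _ a.2) (by simpa using ha)
    ⟨_, a.2, _, b.2, o a ha, o b hb, fun e => hab (Subtype.ext e), he.ab _ a.2 _ b.2⟩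
  by_cases e1 : x = 1
  · exact key y z hyz (e1 ▸ hxy.symm) (e1 ▸ hxz.symm)
  by_cases e2 : y = 1
  · exact key x z hxz e1 (e2 ▸ hyz.symm)
  · exact key x y hxy e1 e2

end Cfsg.Agent.CT8
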