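import Mathlib
import Cfsg.Agent.CT8.BasA
import Cfsg.Agent.GT.MinNormal
import Cfsg.Agent.S0205

/-! # S1308, piece BasB: `Z*` inside `K⟨x⟩`, solvability tools. -/

set_option autoImplicit false
set_option linter.unusedSectionVars false
set_option linter.unusedVariables false

namespace Cfsg.Agent.CT8

open Subgroup Cfsg.Agent.GT Cfsg.Agent.Inv Cfsg.Agent.Cmp
open scoped commutatorElement

variable {G : Type*} [Group G] [Finite G] {𝒦 : Set (Subgroup G)}

variable {K L : Subgroup G}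

theorem bb_comm_mem {x k : G} (hn : x ∈ NN K) (hk : k ∈ K) : ⁅x, k⁆ ∈ K := by
  rw [commutatorElement_def]
  exact mul_mem (conj_mem_of_mem_normalizer hn hk) (inv_mem hk)

theorem bb_odd_of_le {A B : Subgroup G} (h : A ≤ B) (hB : Odd (Nat.card B)) : Odd (Nat.card A) :=
  hB.of_dvd_nat (card_dvd_of_le h)

/-- `Z*` for an involution normalizing `K`. -/
theorem zstar_Od {x : G} (hx : x * x = 1) (hn : x ∈ NN K)
    (hiso : ∀ k ∈ K, Commute x (k * x * k⁻¹) → k * x * k⁻¹ = x) : ∀ k ∈ K, ⁅x, k⁆ ∈ Od K := by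
  intro k hk
  by_cases h1 : x = 1
  · rw [h1, commutatorElement_one_left]; exact one_mem _
  set Y := K ⊔ zpowers x with hY
  have hcY : x ∈ Y := mem_sup_right (mem_zpowers x)
  have hz : IsIsolatedInvolution (⟨x, hcY⟩ : Y) := by
    refine ⟨by rw [orderOf_mk]; exact orderOf_two_of hx h1, fun g hg => Subtype.ext ?_⟩
    obtain ⟨k, hk, _, ⟨n, rfl⟩, e⟩ := exists_mul_of_mem_sup (zpowers_le.2 hn) g.2
    have h2 : (g : G) * x * (g : G)⁻¹ = k * x * k⁻¹ := by rw [← e]; group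
    have h3 : Commute x ((g : G) * x * (g : G)⁻¹) := congrArg Subtype.val hg
    exact h2.trans (hiso k hk (h2 ▸ h3))
  have h4 : ⁅x, k⁆ ∈ Od Y :=
    ⟨_, hz.commutator_mem_oddCore ⟨k, mem_sup_left hk⟩, rfl⟩
  have h5 : Od Y ⊓ K ≤ Od K := le_Od inf_le_right (fun g hg =>
    inf_normalizer_le_normalizer_inf (mem_inf.2 ⟨le_NN_Od Y (mem_sup_left hg), le_normalizer hg⟩))
    (bb_odd_of_le inf_le_left (odd_Od Y))
  exact h5 (mem_inf.2 ⟨h4, bb_comm_mem hn hk⟩)

theorem exists_Od_mul {x k : G} (hx : x * x = 1) (hn : x ∈ NN K) (hk : k ∈ K)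
    (h : ⁅x, k⁆ ∈ Od K) : ∃ o ∈ Od K, ∃ c ∈ K, Commute c x ∧ k = o * c := by
  have hw : k * x * k⁻¹ * (k * x * k⁻¹) = 1 := by
    calc k * x * k⁻¹ * (k * x * k⁻¹) = k * (x * x) * k⁻¹ := by group
      _ = 1 := by rw [hx]; group
  have e : x * (k * x * k⁻¹) = ⁅x, k⁆ := by
    rw [commutatorElement_def, inv_of_mul_self hx]; group
  have hodd : Odd (orderOf (x * (k * x * k⁻¹))) := by
    rw [e]
    exact (odd_Od K).of_dvd_nat (orderOf_dvd_natCard _ h)
  obtain ⟨d, hd, hd2⟩ := exists_conj_of_odd hx hw hodd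
  have hdO : d ∈ Od K := zpowers_le.2 (e ▸ h) hd
  refine ⟨d, hdO, d⁻¹ * k, mul_mem (inv_mem (Od_le K hdO)) hk, comm_of_conj_eq ?_, by group⟩
  calc d⁻¹ * k * x * (d⁻¹ * k)⁻¹ = d⁻¹ * (k * x * k⁻¹) * d := by group
    _ = x := by rw [← hd2]; group

theorem TI.odd_le_NN (h : TI 𝒦) (hL : L ∈ 𝒦) {D X : Subgroup G} (hD : Odd (Nat.card D))
    (hX : X ≤ L) (h4 : Four X) (hn : X ≤ NN D) : D ≤ NN L := by
  obtain ⟨a, ha, b, hb, ha2, hb2, hab, hc⟩ := h4
  have key : ∀ y ∈ X, orderOf y = 2 → D ⊓ centralizer {y} ≤ NN L := fun y hy hy2 g hg =>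
    h.mem_NN hL (hX hy) (Two.of_two hy2) (ne_one_of_two hy2)
      (mem_centralizer_singleton_iff.1 (mem_inf.1 hg).2)
  exact le_of_four_group ha2 hb2 hab hc (hn ha) (hn hb)
    (fun e => (Nat.not_even_iff_odd.2 hD) (even_iff_two_dvd.2 e)) (key a ha ha2) (key b hb hb2)
    (key _ (mul_mem ha hb) (orderOf_mul_two_of_commute ha2 hb2 hab hc))

theorem solv_of_odd {D : Subgroup G} (hD : Odd (Nat.card D)) : Group.IsSolvable D :=
  S0205.result hD

theorem bb_solv_of_two {X : Subgroup G} (hX : IsPGroup 2 X) : Group.IsSolvable X :=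
  haveI : Fact (Nat.Prime 2) := ⟨Nat.prime_two⟩
  haveI := hX.isNilpotent
  inferInstance

/-- A solvable normal subgroup containing a Sylow 2-subgroup. -/
theorem solv_of_syl_le {N S : Subgroup G} (hN : N ≤ K) (hn : K ≤ NN N) (hs : Group.IsSolvable N)
    (hS : Syl S K) (hSN : S ≤ N) : Group.IsSolvable K := by
  have hnn : (N.subgroupOf K).Normal := (normal_subgroupOf_iff_le_normalizer hN).2 hn
  have h1 : Odd (Nat.card (K ⧸ N.subgroupOf K)) := by
    rw [← index_eq_card, ← Nat.not_even_iff_odd, even_iff_two_dvd]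
    exact fun e => hS.idx (e.trans (relIndex_dvd_of_le_left K hSN))
  have := S0205.result h1
  have : Group.IsSolvable (N.subgroupOf K) :=
    Group.isSolvable_of_isSolvable_injective (f := (subgroupOfEquivOfLe hN).toMonoidHom)
      (subgroupOfEquivOfLe hN).injective
  exact Group.isSolvable_of_ker_le_range (N.subgroupOf K).subtype
    (QuotientGroup.mk' (N.subgroupOf K)) (by rw [QuotientGroup.ker_mk', range_subtype])

theorem solv_sup {D X : Subgroup G} (hD : Group.IsSolvable D) (hX : Group.IsSolvable X)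
    (hn : X ≤ NN D) : Group.IsSolvable ↥(D ⊔ X) := by
  rw [sup_comm]
  exact isSolvable_sup_of_le_normalizer hn

theorem gd_of_solv (hs : Group.IsSolvable K) {S : Subgroup G} (hS : Syl S K) (he : El S)
    (h4 : Four K) : Gd K := by
  obtain ⟨z, hz, hz2⟩ := (hS.four h4).exists_inv
  exact ⟨z, hS.le hz, hz2, isSolvable_of_le inf_le_left, S, hS.of_le (le_inf hS.le fun s hs' =>
    mem_centralizer_singleton_iff.2 (he.ab s hs' z hz)) inf_le_left, Or.inl he⟩

theorem bg_of_not_el {S : Subgroup G} (hS : Syl S K) (he : ¬ El S) : Bg K := by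
  intro S' hS' he'
  obtain ⟨k, -, hk⟩ := hS'.exists_conj hS.two hS.le
  refine absurd (fun x hx => ?_) he
  calc x * x = k⁻¹ * (k * x * k⁻¹ * (k * x * k⁻¹)) * k := by group
    _ = 1 := by rw [he' _ (hk x hx)]; group

/-- `O(K) X` is normal in `K` if `X` is central modulo `O(K)`. -/
theorem bb_le_NN_sup {X : Subgroup G} (hc : ∀ s ∈ X, ∀ k ∈ K, ⁅s, k⁆ ∈ Od K) :
    K ≤ NN (Od K ⊔ X) := fun k hk => by
  refine map_conj_eq_self_iff.1 (eq_of_le_of_card_ge ?_ (card_map_conj _ _).ge)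
  rw [Subgroup.map_sup]
  refine sup_le (map_conj_le_iff_forall.2 fun o ho =>
    mem_sup_left (conj_mem_of_mem_normalizer (le_NN_Od K hk) ho))
    (map_conj_le_iff_forall.2 fun s hs => ?_)
  have := mul_mem (mem_sup_left (inv_mem (hc s hs k hk))) (mem_sup_right hs : s ∈ Od K ⊔ X)
  convert this using 1
  rw [commutatorElement_def]; group

theorem bg_of_not_solv (hs : ¬ Group.IsSolvable K) : Bg K := by
  intro S hS he
  by_contra! hc
  exact hs (solv_of_syl_le (sup_le (Od_le K) hS.le) (bb_le_NN_sup hc)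
    (solv_sup (solv_of_odd (odd_Od K)) (bb_solv_of_two hS.two) (hS.le.trans (le_NN_Od K))) hS
    le_sup_right)

/-- If the involution `x ∈ K` is central modulo `O(K)`, then `NS K` fails. -/
theorem NS.false (h : NS K) {x : G} (hx : x ∈ K) (h2 : orderOf x = 2)
    (hc : ∀ k ∈ K, ⁅x, k⁆ ∈ Od K) : False := by
  have hX : zpowers x ≤ K := zpowers_le.2 hx
  have h1 : ∀ s ∈ zpowers x, ∀ k ∈ K, ⁅s, k⁆ ∈ Od K := fun s hs k hk => by
    by_cases h0 : s = 1
    · rw [h0, commutatorElement_one_left]; exact one_mem _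
    · obtain ⟨n, rfl⟩ := hs
      have hs2 : orderOf (x ^ n) = 2 := orderOf_two_of (by
        rw [← zpow_add, ← two_mul, zpow_mul, zpow_two, mul_self_of_two h2, one_zpow]) h0
      rw [show (fun n : ℤ => x ^ n) n = x from
        involution_unique_of_mem_zpowers hs2 h2 ⟨n, rfl⟩ (mem_zpowers x)]
      exact hc k hk
  have h3 := h _ (sup_le (Od_le K) hX) (bb_le_NN_sup h1)
    (solv_sup (solv_of_odd (odd_Od K)) (bb_solv_of_two (Two.of_two h2).isPGroup)
      (hX.trans (le_NN_Od K)))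
  exact odd_card_iff_no_involution.1 h3 x (mem_sup_right (mem_zpowers x)) h2

theorem NS.bg (h : NS K) (h4 : Four K) : Bg K := by
  intro S hS he
  obtain ⟨z, hz, hz2⟩ := (hS.four h4).exists_inv
  by_contra! hc
  exact h.false (hS.le hz) hz2 (hc z hz)

end Cfsg.Agent.CT8
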