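import Mathlib
import Cfsg.Agent.Cmp.FullA
import Cfsg.Agent.GT.PPrimeCore
import Cfsg.Agent.GT.FourGroup

/-!
# The centralizer of a standard subgroup (S1308): definitions

See `stubs/Cfsg/Agent/CT8/PLAN.md`.
-/

set_option autoImplicit false

namespace Cfsg.Agent.CT8

open Subgroup Cfsg.Agent.GT Cfsg.Agent.Inv Cfsg.Agent.Cmp
open scoped commutatorElement

variable {G : Type*} [Group G]

/-- The largest normal subgroup of odd order of `K`, as a subgroup of `G`. -/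
abbrev Od (K : Subgroup G) : Subgroup G := pPrimeCoreOf 2 K

/-- Every element of `X` squares to `1`. -/
def El (X : Subgroup G) : Prop := ∀ x ∈ X, x * x = 1

/-- `X` is abelian. -/
def Ab (X : Subgroup G) : Prop := ∀ x ∈ X, ∀ y ∈ X, Commute x y

/-- `E` consists of the elements of `S` of order at most 2. -/
def Om (E S : Subgroup G) : Prop := ∀ x, x ∈ E ↔ x ∈ S ∧ x * x = 1

/-- `K` is generated by its 2-elements. -/
def Gen (K : Subgroup G) : Prop := K ≤ closure {x | x ∈ K ∧ Two x}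

/-- A conjugacy class of subgroups; two members with a common involution are equal. -/
structure TI (𝒦 : Set (Subgroup G)) : Prop where
  conj : ∀ K ∈ 𝒦, ∀ g : G, K ^ᶜ g ∈ 𝒦
  trans : ∀ K ∈ 𝒦, ∀ L ∈ 𝒦, ∃ g : G, L = K ^ᶜ g
  ti : ∀ K ∈ 𝒦, ∀ L ∈ 𝒦, ∀ x ∈ K, x ∈ L → orderOf x = 2 → K = L

/-- The members moreover contain four-groups. -/
structure Fm (𝒦 : Set (Subgroup G)) : Prop extends TI 𝒦 where
  four : ∀ K ∈ 𝒦, Four K

/-- Related members: an involution of `L` normalizes `K`. -/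
def Rl (K L : Subgroup G) : Prop := K ≠ L ∧ ∃ y ∈ L, orderOf y = 2 ∧ y ∈ NN K

/-- Distinct subgroups normalizing each other. -/
def HC (K L : Subgroup G) : Prop := K ≠ L ∧ K ≤ NN L ∧ L ≤ NN K

/-- Full pairs normalize each other. -/
def FH (𝒦 : Set (Subgroup G)) : Prop :=
  ∀ K ∈ 𝒦, ∀ L ∈ 𝒦, K ≠ L → ∀ S : Subgroup G, Syl S L → S ≤ NN K → HC K L

/-- The conclusion of the theorem. -/
def Gd (K : Subgroup G) : Prop :=
  ∃ z ∈ K, orderOf z = 2 ∧ Group.IsSolvable ↥(K ⊓ centralizer ({z} : Set G)) ∧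
    ∃ U : Subgroup G, Syl U (K ⊓ centralizer ({z} : Set G)) ∧
      (El U ∨ ∃ n : ℕ, Nonempty (U ≃* DihedralGroup n))

/-- Solvable normal subgroups of `K` have odd order. -/
def NS (K : Subgroup G) : Prop :=
  ∀ N : Subgroup G, N ≤ K → K ≤ NN N → Group.IsSolvable N → Odd (Nat.card N)

/-- `K` is not `O(K)` times an elementary group central modulo `O(K)`. -/
def Bg (K : Subgroup G) : Prop :=
  ∀ S : Subgroup G, Syl S K → El S → ∃ s ∈ S, ∃ k ∈ K, ⁅s, k⁆ ∉ Od K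

/-- All related pairs normalize each other. -/
structure HF (𝒦 : Set (Subgroup G)) : Prop extends Fm 𝒦 where
  hc : ∀ K ∈ 𝒦, ∀ L ∈ 𝒦, Rl K L → HC K L
  bg : ∀ K ∈ 𝒦, Bg K

/-- `K` contains the 2-elements of the centralizer of the quasisimple group `A`. -/
structure Std (A K : Subgroup G) : Prop where
  qs : IsQuasisimple A
  le : K ≤ CC A
  two : ∀ x ∈ CC A, Two x → x ∈ K
  nn : NN K = NN A

/-- The data of a related pair. -/
structure PD (K L R T T0 : Subgroup G) : Prop where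
  ne : K ≠ L
  sT : Syl T (L ⊓ NN K)
  neT : T ≠ ⊥
  sR : Syl R K
  TR : T ≤ NN R
  le : T0 ≤ R
  sT0 : Syl T0 (K ⊓ NN L)
  cen : ∀ x ∈ T, x ≠ 1 → ∀ u ∈ R, Commute u x ↔ u ∈ T0
  iso : Nonempty (T0 ≃* T)
  disj : T ⊓ K = ⊥

/-- The non-full local configuration (`Cmp.NF` without hypotheses on `K`). -/
structure Nf (K U S T : Subgroup G) : Prop where
  syl : Syl U K
  two : IsPGroup 2 T
  TK : T ≤ NN K
  TU : T ≤ NN U
  disj : T ⊓ K = ⊥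
  ne : T ≠ ⊥
  lt : S < U
  cen : ∀ x ∈ T, x ≠ 1 → ∀ u ∈ U, Commute u x ↔ u ∈ S
  card : Nat.card S = Nat.card T

/-- All non-full pairs have elementary non-cyclic `T`. -/
structure W2 (𝒦 : Set (Subgroup G)) : Prop extends Fm 𝒦 where
  fh : FH 𝒦
  el : ∀ K ∈ 𝒦, ∀ L ∈ 𝒦, ∀ R T T0 : Subgroup G, PD K L R T T0 → ¬ HC K L → El T0 ∧ Four T

/-- A class of involutions which commute inside each member (case (bc)). -/
structure ZD0 (𝒦 : Set (Subgroup G)) (D : Set G) : Prop where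
  two : ∀ d ∈ D, orderOf d = 2
  mem : ∀ d ∈ D, ∃ K ∈ 𝒦, d ∈ K
  conj : ∀ d ∈ D, ∀ g : G, g * d * g⁻¹ ∈ D
  ex : ∀ K ∈ 𝒦, ∃ d ∈ D, d ∈ K
  mul : ∀ K ∈ 𝒦, ∀ Q : Subgroup G, IsPGroup 2 Q → ∀ d ∈ D, ∀ e ∈ D, d ∈ K → e ∈ K → d ∈ Q →
    e ∈ Q → Commute d e ∧ (d ≠ e → d * e ∈ D)
  cen : ∀ K ∈ 𝒦, ∀ S : Subgroup G, Syl S K → ∀ s ∈ S, s ∈ CC S → ∀ Q : Subgroup G,
    IsPGroup 2 Q → ∀ d ∈ D, d ∈ K → d ∈ Q → s ∈ Q → Commute d s

/-- `Z` acts on the line `E F` as a root group with axis `E`. -/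
structure Rt (E Z F : Subgroup G) : Prop where
  le : E ≤ Z
  cen : E ≤ CC Z
  EF : E ≤ CC F
  com : ∀ z ∈ Z, ∀ f ∈ F, ⁅z, f⁆ ∈ E
  ns : ∀ z ∈ Z, ∀ f ∈ F, Commute z f → z ∈ E ∨ f = 1

/-- The world in which the involutions of a Sylow 2-subgroup of a member are central. -/
structure N2 (𝒦 : Set (Subgroup G)) : Prop extends Fm 𝒦 where
  fh : FH 𝒦
  cen : ∀ K ∈ 𝒦, ∀ S : Subgroup G, Syl S K → ∀ x ∈ S, x * x = 1 → x ∈ CC S
  nel : ∀ K ∈ 𝒦, ∀ S : Subgroup G, Syl S K → ¬ El S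
  nf : ∀ K ∈ 𝒦, ∀ L ∈ 𝒦, ∀ R T T0 : Subgroup G, PD K L R T T0 → ¬ HC K L →
    Om T0 R ∧ R ≤ NN (T0 ⊔ T)

/-- A point in the world `N2`. -/
def Pn (K E : Subgroup G) : Prop := ∃ S : Subgroup G, Syl S K ∧ Om E S

/-- All involutions of members lying in a 2-group commute. -/
def F2 (𝒦 : Set (Subgroup G)) : Prop :=
  ∀ K ∈ 𝒦, ∀ L ∈ 𝒦, ∀ d ∈ K, ∀ e ∈ L, d * d = 1 → e * e = 1 → ∀ Q : Subgroup G,
    IsPGroup 2 Q → d ∈ Q → e ∈ Q → Commute d e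

/-- The `L₃`-configuration. -/
structure L3 (K1 K2 K U V E : Subgroup G) : Prop where
  n1 : K1 ≠ K
  n2 : K2 ≠ K
  h1 : ¬ HC K1 K
  h2 : ¬ HC K2 K
  l1 : U ≤ K1
  l2 : V ≤ K2
  l : E ≤ K
  EU : E ≤ CC U
  EV : E ≤ CC V
  com : ∀ u ∈ U, ∀ v ∈ V, ⁅u, v⁆ ∈ E
  ns : ∀ u ∈ U, ∀ v ∈ V, Commute u v → u = 1 ∨ v = 1

/-- `Z ≅ 4 × 4` inside `K`, with `E = Ω₁(Z)`. -/
structure Core (K E Z : Subgroup G) : Prop where
  le : Z ≤ K
  ab : Ab Z
  om : Om E Z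
  sq : ∀ z ∈ Z, z * z ∈ E
  cE : Nat.card E = 4
  cZ : Nat.card Z = 16

/-- A point in the world `CW`. -/
def Pt (K E : Subgroup G) : Prop := ∃ Z : Subgroup G, Core K E Z

/-- The world of `4 × 4` cores. -/
structure CW (𝒦 : Set (Subgroup G)) : Prop extends Fm 𝒦 where
  fh : FH 𝒦
  ex : ∀ K ∈ 𝒦, ∃ E Z : Subgroup G, Core K E Z
  uniq : ∀ K ∈ 𝒦, ∀ E Z E' Z' : Subgroup G, Core K E Z → Core K E' Z' →
    IsPGroup 2 ↥(Z ⊔ Z') → Z = Z'
  rt : ∀ K ∈ 𝒦, ∀ L ∈ 𝒦, K ≠ L → ¬ HC K L → ∀ E Z F : Subgroup G, Core K E Z → Pt L F →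
    F ≤ NN Z → Rt E Z F
  small : ∀ K ∈ 𝒦, ∀ L ∈ 𝒦, K ≠ L → ¬ HC K L → ∀ X : Subgroup G, X ≤ K → X ≤ NN L →
    IsPGroup 2 X → Nat.card X ≤ 4
  sc : ∀ K ∈ 𝒦, ∀ E Z : Subgroup G, Core K E Z → ∀ x ∈ K, Two x → x ∈ CC Z → x ∈ Z

/-- The `L₃`-configuration in the world `CW`. -/
structure L3c (𝒦 : Set (Subgroup G)) (K1 K2 K U V E : Subgroup G) : Prop
    extends L3 K1 K2 K U V E where
  cw : CW 𝒦
  m1 : K1 ∈ 𝒦
  m2 : K2 ∈ 𝒦
  m : K ∈ 𝒦
  p1 : Pt K1 U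
  p2 : Pt K2 V
  p : Pt K E

/-- The members meeting the 2-group `P`. -/
def Dl (𝒦 : Set (Subgroup G)) (P : Subgroup G) : Set (Subgroup G) := {K | K ∈ 𝒦 ∧ P ⊓ K ≠ ⊥}

theorem El.ab {X : Subgroup G} (h : El X) : Ab X := fun x hx y hy =>
  (commute_iff_mul_sq (h x hx) (h y hy)).2 (h _ (mul_mem hx hy))

theorem El.two {X : Subgroup G} (h : El X) : IsPGroup 2 X := fun x =>
  ⟨1, Subtype.ext (by simpa [sq] using h x x.2)⟩

theorem El.mono {X Y : Subgroup G} (h : El Y) (hle : X ≤ Y) : El X := fun x hx => h x (hle hx)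

theorem Ab.mono {X Y : Subgroup G} (h : Ab Y) (hle : X ≤ Y) : Ab X :=
  fun x hx y hy => h x (hle hx) y (hle hy)

theorem Ab.le_CC {X : Subgroup G} (h : Ab X) : X ≤ CC X := fun x hx =>
  mem_CC.2 fun y hy => h y hy x hx

theorem Om.le {E S : Subgroup G} (h : Om E S) : E ≤ S := fun x hx => ((h x).1 hx).1

theorem Om.el {E S : Subgroup G} (h : Om E S) : El E := fun x hx => ((h x).1 hx).2

theorem Om.nn {E S : Subgroup G} (h : Om E S) : NN S ≤ NN E := fun g hg =>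
  mem_normalizer_iff.2 fun x => by
    rw [h, h, ← mem_normalizer_iff.1 hg x]
    refine and_congr_right fun _ => ⟨fun e => ?_, fun e => ?_⟩
    · calc g * x * g⁻¹ * (g * x * g⁻¹) = g * (x * x) * g⁻¹ := by group
        _ = 1 := by rw [e]; group
    · calc x * x = g⁻¹ * (g * x * g⁻¹ * (g * x * g⁻¹)) * g := by group
        _ = 1 := by rw [e]; group

theorem HC.symm {K L : Subgroup G} (h : HC K L) : HC L K := ⟨h.1.symm, h.2.2, h.2.1⟩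

theorem NN_conj (K : Subgroup G) (g : G) : NN (K ^ᶜ g) = NN K ^ᶜ g := normalizer_map_conj K g

theorem CC_conj (K : Subgroup G) (g : G) : CC (K ^ᶜ g) = CC K ^ᶜ g := centralizer_map_conj K g

theorem HC.conj {K L : Subgroup G} (h : HC K L) (g : G) : HC (K ^ᶜ g) (L ^ᶜ g) :=
  ⟨fun e => h.1 (map_conj_inj.1 e), by rw [NN_conj]; exact map_mono h.2.1,
    by rw [NN_conj]; exact map_mono h.2.2⟩

theorem hc_conj_iff {K L : Subgroup G} (g : G) : HC (K ^ᶜ g) (L ^ᶜ g) ↔ HC K L :=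
  ⟨fun h => by simpa only [map_conj_inv_map_conj] using h.conj g⁻¹, fun h => h.conj g⟩

theorem HC.comm_mem {K L : Subgroup G} (h : HC K L) {x y : G} (hx : x ∈ K) (hy : y ∈ L) :
    ⁅x, y⁆ ∈ K ⊓ L := by
  rw [commutatorElement_def]
  refine mem_inf.2 ⟨?_, mul_mem (conj_mem_of_mem_normalizer (h.2.1 hx) hy) (inv_mem hy)⟩
  have := mul_mem hx (conj_mem_of_mem_normalizer (h.2.2 hy) (inv_mem hx))
  simpa only [mul_assoc] using this

theorem L3.symm {K1 K2 K U V E : Subgroup G} (h : L3 K1 K2 K U V E) : L3 K2 K1 K V U E :=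
  ⟨h.n2, h.n1, h.h2, h.h1, h.l2, h.l1, h.l, h.EV, h.EU,
    fun v hv u hu => by rw [← commutatorElement_inv]; exact inv_mem (h.com u hu v hv),
    fun v hv u hu hc => (h.ns u hu v hv hc.symm).symm⟩

theorem L3c.symm {𝒦 : Set (Subgroup G)} {K1 K2 K U V E : Subgroup G}
    (h : L3c 𝒦 K1 K2 K U V E) : L3c 𝒦 K2 K1 K V U E :=
  ⟨h.toL3.symm, h.cw, h.m2, h.m1, h.m, h.p2, h.p1, h.p⟩

theorem Od_le (K : Subgroup G) : Od K ≤ K := pPrimeCoreOf_le K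

theorem NN_le_NN_Od (K : Subgroup G) : NN K ≤ NN (Od K) := normalizer_le_normalizer_pPrimeCoreOf K

theorem le_NN_Od (K : Subgroup G) : K ≤ NN (Od K) := le_normalizer_pPrimeCoreOf K

theorem Od_conj (K : Subgroup G) (g : G) : Od (K ^ᶜ g) = Od K ^ᶜ g := pPrimeCoreOf_map_conj 2 K g

theorem odd_Od [Finite G] (K : Subgroup G) : Odd (Nat.card (Od K)) :=
  Nat.coprime_two_right.1 (coprime_card_pPrimeCoreOf 2 K)

theorem le_Od {K D : Subgroup G} (hle : D ≤ K) (hn : K ≤ NN D) (ho : Odd (Nat.card D)) :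
    D ≤ Od K := le_pPrimeCoreOf hle hn (Nat.coprime_two_right.2 ho)

end Cfsg.Agent.CT8
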