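import Mathlib
import Cfsg.Agent.Loc.TechTerminal

/-! Existence of `p`-terminal `p`-components from `L`-balance. -/

set_option autoImplicit false

namespace Cfsg.Agent.CT8

open Subgroup Cfsg.Agent.GT Cfsg.Agent.Loc
open scoped commutatorElement

variable {G : Type*} [Group G] {p : ℕ}

local notation:75 H " ^ᶜ " g:76 => Subgroup.map (MulEquiv.toMonoidHom (MulAut.conj g)) H
local notation "𝐂[" x "]" => centralizer ({x} : Set G)

/-- `L`-balance in all subgroups. -/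
def P1.Bal (p : ℕ) (G : Type*) [Group G] : Prop :=
  ∀ M R : Subgroup G, IsPGroup p R → R ≤ M → pLayerOf p (M ⊓ centralizer (R : Set G)) ≤ pLayerOf p M

variable [Finite G] [hp : Fact p.Prime] {x : G} {K Q : Subgroup G} (hS : P1.Bal p G)

include hS

theorem P1.bad_structure (h : MaxTriple p x K Q) {y : G} (hy : y ∈ Q) (hoy : orderOf y = p)
    (hbad : ∀ J, IsPComponentOf p J 𝐂[y] → ¬ pElementClosure p (K ⊓ 𝐂[y]) ≤ J) :
    ∃ J : Subgroup G, x ∉ normalizer (J : Set G) ∧ y ∈ normalizer (J : Set G) ∧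
      pElementClosure p (K ⊓ 𝐂[y]) ≤ normalizer (J : Set G) ∧
      (∀ r ∈ Q ⊓ 𝐂[y], ∃ i : ℕ, (x ^ i)⁻¹ * r ∈ normalizer (J : Set G)) ∧
      p ^ 2 * Nat.card (Q ⊓ 𝐂[y] ⊓ normalizer (J : Set G) : Subgroup G) ≤ Nat.card Q ∧
      (∀ v ∈ Q ⊓ 𝐂[y], orderOf v = p → v ∈ normalizer (J : Set G) →
        ∀ J', IsPComponentOf p J' 𝐂[v] → ¬ pElementClosure p (K ⊓ 𝐂[v]) ≤ J') ∧
      ∃ z ∈ pElementClosure p (K ⊓ centralizer (Q : Set G)), orderOf z = p ∧
        ∃ g ∈ 𝐂[y], g⁻¹ * x * g = z * x ∧ Commute g z := by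
  have hxy : x ∈ 𝐂[y] :=
    mem_centralizer_singleton_iff.2 (mem_centralizer_singleton_iff.1 (h.le_cx hy)).symm
  obtain ⟨a1, a2, a3, a4⟩ := h.cover hy
  have hI : IsPComponentOf p (pElementClosure p (K ⊓ 𝐂[y])) (𝐂[y] ⊓ 𝐂[x]) :=
    (isPComponentOf_iff hp.out).2 ⟨(subnormalIn_pElementClosure _).trans
      (inf_comm 𝐂[x] 𝐂[y] ▸ h.comp.subnormalIn.inf_inf _), a1⟩
  have hx' : IsPGroup p (zpowers x) := h.pgrp.to_le (zpowers_le_of_mem h.mem)
  have hL : pElementClosure p (K ⊓ 𝐂[y]) ≤ pLayerOf p 𝐂[y] := by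
    refine hI.le_pLayerOf.trans ?_
    rw [← centralizer_zpowers x]
    exact hS _ _ hx' (zpowers_le_of_mem hxy)
  obtain ⟨J, h1, h2, h3, h4, h5, h6, h7, h8, h9⟩ := diag_structure_of hxy h.ord hI hL hbad
    fun J hJ => (h.max1 y J hoy hJ).trans a4.ge
  have hc : ∀ r ∈ Q ⊓ 𝐂[y], ⁅pElementClosure p (K ⊓ 𝐂[y]), zpowers r⁆ ≤ pPrimeCoreOf p 𝐂[y] :=
    fun r hr => (h.comm_cover_le (zpowers_le_of_mem hr)).trans h5
  have hc' : ∀ r ∈ Q ⊓ 𝐂[y], r ∈ normalizer (J : Set G) → ⁅J, zpowers r⁆ ≤ pPrimeCoreOf p 𝐂[y] :=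
    fun r hr hn => h7 r ⟨hr.2, h.le_cx hr.1⟩ (hc r hr) hn
  refine ⟨J, h3, centralizer_le_normalizer _ (le_centralizer_singleton_iff.1 h1.le),
    hL.trans (h1.pLayerOf_le_normalizer hp.out), fun r hr => h6 r hr.2 (hc r hr), ?_,
    fun v hv hov hn => h.bad_of_normalizes hy hv.1 hov hv.2 h1 h3 h4 h5 (hc' v hv hn), ?_⟩
  · obtain ⟨T, b1, b2, b3, b4⟩ := h8 (Q ⊓ 𝐂[y] ⊓ normalizer (J : Set G))
      (h.pgrp.to_le (inf_le_left.trans inf_le_left))
      (inf_le_left.trans (le_inf inf_le_right (inf_le_left.trans h.le_cx)))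
      (commutator_le_of_forall_zpowers fun r hr => hc' r hr.1 hr.2)
    exact b4.trans (h.max2 y J T hoy h1 (h2.trans a4) b2
      ((le_centralizerOfPComponent_iff' h1.le).2 ⟨b1, b3⟩))
  · have hle : pElementClosure p (K ⊓ centralizer (Q : Set G)) ≤ pElementClosure p (K ⊓ 𝐂[y]) :=
      pElementClosure_mono (inf_le_inf_left _ (centralizer_le_centralizer_singleton hy))
    refine h9 _ hle ?_
    obtain ⟨-, -, -, b4⟩ := pquasisimple_cover (h.comp.isPQuasisimple hp.out) h.pgrp h.comm_le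
    exact (le_sup_of_pqOrder_le hle (a4.trans b4.symm).le).1.trans (sup_le_sup_left h5 _)

theorem P1.good_of_central (h : MaxTriple p x K Q) {y : G} (hy : y ∈ Q) (hoy : orderOf y = p)
    (hc : Q ≤ 𝐂[y]) : ∃ J, IsPComponentOf p J 𝐂[y] ∧ pElementClosure p (K ⊓ 𝐂[y]) ≤ J := by
  by_contra! hbad
  obtain ⟨J, h1, -, -, h4, h5, -⟩ := P1.bad_structure hS h hy hoy hbad
  rw [inf_eq_left.2 hc] at h4 h5
  set R := Q ⊓ normalizer (J : Set G)
  have hxR : x ∈ normalizer (R : Set G) :=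
    centralizer_le_normalizer _ (le_centralizer_singleton_iff.1 (inf_le_left.trans h.le_cx))
  have h6 : Q ≤ R ⊔ zpowers x := fun r hr => by
    obtain ⟨i, hi⟩ := h4 r hr
    rw [← mul_inv_cancel_left (x ^ i) r, sup_comm]
    exact mul_mem_sup (pow_mem (mem_zpowers x) i)
      (mem_inf.2 ⟨Q.mul_mem (Q.inv_mem (Q.pow_mem h.mem i)) hr, hi⟩)
  have h7 := card_le_of_le h6
  rw [PG.card_sup_zpowers hp.out hxR (fun h' => h1 h'.2)
    (by rw [← h.ord, pow_orderOf_eq_one]; exact one_mem _)] at h7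
  have h8 : 0 < Nat.card R := Nat.card_pos
  have := hp.out.one_lt
  nlinarith

theorem P1.good_of_conj (h : MaxTriple p x K Q) {y : G} (hy : y ∈ Q) (hoy : orderOf y = p)
    {g : G} (hg : g ∈ Q) (h1 : ⁅g, y⁆ ∈ zpowers x) (h2 : ⁅g, y⁆ ≠ 1) :
    ∃ J, IsPComponentOf p J 𝐂[y] ∧ pElementClosure p (K ⊓ 𝐂[y]) ≤ J := by
  by_contra! hbad
  obtain ⟨J, -, -, h3, -, -, h6, z, hz, hoz, t, ht, e1, e2⟩ := P1.bad_structure hS h hy hoy hbad
  have hz' := pElementClosure_le _ hz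
  have hzD : z ∈ centralizerOfPComponent p x K := by
    by_contra hzD
    obtain ⟨k, hk⟩ := mem_zpowers_iff.1 h1
    have cgx : Commute g x := mem_centralizer_singleton_iff.1 (h.le_cx hg)
    have cgz : Commute g z := hz'.2 g hg
    have cyz : Commute y z := hz'.2 y hy
    have cty : Commute t y := mem_centralizer_singleton_iff.1 ht
    have czx : Commute z x := mem_centralizer_singleton_iff.1 (h.comp.le hz'.1)
    have egy : g * y * g⁻¹ = x ^ k * y := by rw [hk, commutatorElement_def]; group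
    set t' := g * t * g⁻¹ with ht'
    have f1 : t'⁻¹ * x * t' = z * x := by
      calc t'⁻¹ * x * t' = g * (t⁻¹ * (g⁻¹ * x * g) * t) * g⁻¹ := by rw [ht']; group
        _ = g * (z * x) * g⁻¹ := by rw [cgx.inv_left.eq, inv_mul_cancel_right, e1]
        _ = z * x := by rw [(cgz.mul_right cgx).eq, mul_inv_cancel_right]
    have f2 : Commute t' (x ^ k * y) := by
      rw [← egy]; exact cty.conj g
    have f3 : Commute t' z := (cgz.mul_left e2).mul_left cgz.inv_left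
    have f4 : t'⁻¹ * y * t' = (z ^ k)⁻¹ * y := by
      calc t'⁻¹ * y * t' = ((t'⁻¹ * x * t'⁻¹⁻¹) ^ k)⁻¹ * (t'⁻¹ * (x ^ k * y) * t') := by
            rw [conj_zpow]; group
        _ = (z ^ k)⁻¹ * y := by
            rw [inv_inv, f1, f2.inv_left.eq, inv_mul_cancel_right, czx.eq,
              czx.symm.mul_zpow]; group
    set u := t * t'⁻¹ with hu
    have g1 : u ∈ 𝐂[x] := by
      refine mem_centralizer_singleton_iff.2 (mul_inv_eq_iff_eq_mul.1 ?_)
      calc u * x * u⁻¹ = t * (t'⁻¹ * x * t') * t⁻¹ := by rw [hu]; group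
        _ = x := by rw [f1, ← e1]; group
    have g2 : Commute u z := e2.mul_left f3.inv_left
    have g3 : u * y * u⁻¹ = (z ^ k)⁻¹ * y := by
      calc u * y * u⁻¹ = t * (t'⁻¹ * y * t') * t⁻¹ := by rw [hu]; group
        _ = _ := by
          rw [f4, ((e2.zpow_right k).inv_right.mul_right cty).eq, mul_inv_cancel_right]
    have g4 : K ^ᶜ u = K := by
      by_contra hne
      refine hzD (zpowers_le.1 ((le_centralizerOfPComponent_iff hp.out h.comp).2
        ⟨zpowers_le_of_mem (h.comp.le hz'.1), ?_⟩))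
      refine (commutator_mono le_rfl (zpowers_le_of_mem ?_)).trans (h.comp.commutator_le_of_ne
        hp.out (h.comp.map_conj hp.out (Subgroup.le_normalizer g1)) (Ne.symm hne))
      rw [mem_map_conj, g2.inv_left.eq, inv_mul_cancel_right]
      exact hz'.1
    have g5 : u * y * u⁻¹ ∈ centralizerOfPComponent p x K := by
      refine zpowers_le.1 ((le_centralizerOfPComponent_iff hp.out h.comp).2
        ⟨zpowers_le_of_mem (mul_mem (mul_mem g1 (h.le_cx hy)) (inv_mem g1)), ?_⟩)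
      have := map_mono (f := (MulAut.conj u).toMonoidHom)
        ((commutator_mono le_rfl (zpowers_le_of_mem hy)).trans h.comm_le)
      rwa [map_conj_commutator, ← pPrimeCoreOf_map_conj, g4, map_conj_zpowers] at this
    rw [g3] at g5
    have g6 : z ^ k ∈ centralizerOfPComponent p x K := by
      simpa using mul_mem (h.le hy) (inv_mem g5)
    have g7 := (PG.zpow_mem_iff_of_pow_prime_mem hp.out hzD
      (by rw [← hoz, pow_orderOf_eq_one]; exact one_mem _) k).1 g6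
    rw [← h.ord, orderOf_dvd_iff_zpow_eq_one] at g7
    exact h2 (hk ▸ g7)
  have hzQ := h.mem_of_central hoz hzD hz'.2
  have hzy : z ∈ 𝐂[y] := centralizer_le_centralizer_singleton hy hz'.2
  obtain ⟨J', a1, a2⟩ := P1.good_of_central hS h hzQ hoz (le_centralizer_singleton_iff.2 hz'.2)
  exact h6 z ⟨hzQ, hzy⟩ hoz (h3 (pElementClosure_mono
    (inf_le_inf_left _ (centralizer_le_centralizer_singleton hy)) hz)) J' a1 a2

theorem P1.good (h : MaxTriple p x K Q) {y : G} (hy : y ∈ Q) (hoy : orderOf y = p) :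
    ∃ J, IsPComponentOf p J 𝐂[y] ∧ pElementClosure p (K ⊓ 𝐂[y]) ≤ J := by
  by_contra! hbad
  obtain ⟨y, ⟨hy, hoy, hbad⟩, hmax⟩ := Set.exists_max_image {y : G | y ∈ Q ∧ orderOf y = p ∧
    ∀ J, IsPComponentOf p J 𝐂[y] → ¬ pElementClosure p (K ⊓ 𝐂[y]) ≤ J}
    (fun y => Nat.card (Q ⊓ 𝐂[y] : Subgroup G)) (Set.toFinite _) ⟨y, hy, hoy, hbad⟩
  obtain ⟨J, h1, h2, -, h4, -, h6, -⟩ := P1.bad_structure hS h hy hoy hbad
  set R := Q ⊓ 𝐂[y] with hR
  have hlt : R < Q := lt_of_le_of_ne inf_le_left fun e => by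
    obtain ⟨J', a1, a2⟩ := P1.good_of_central hS h hy hoy (e ▸ inf_le_right)
    exact hbad J' a1 a2
  obtain ⟨g, hg, hgR⟩ := SetLike.exists_of_lt (Tr.lt_inf_normalizer h.pgrp hlt)
  have hxp : x ^ p = 1 := h.ord ▸ pow_orderOf_eq_one x
  have hxR : x ∈ R := ⟨h.mem,
    mem_centralizer_singleton_iff.2 (mem_centralizer_singleton_iff.1 (h.le_cx hy)).symm⟩
  have hdisj : ∀ c ∈ zpowers x, c ∈ normalizer (J : Set G) → c = 1 := by
    intro c hc hn
    obtain ⟨k, rfl⟩ := mem_zpowers_iff.1 hc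
    have := (PG.zpow_mem_iff_of_pow_prime_mem hp.out h1 (by rw [hxp]; exact one_mem _) k).1 hn
    rwa [← h.ord, orderOf_dvd_iff_zpow_eq_one] at this
  have hne : zpowers x < R := lt_of_le_of_ne (zpowers_le_of_mem hxR) fun e => by
    have : y = 1 := hdisj y (e ▸ mem_inf.2 ⟨hy, mem_centralizer_singleton_iff.2 rfl⟩) h2
    rw [this, orderOf_one] at hoy
    exact hp.out.one_lt.ne hoy
  have hQx : Q ≤ centralizer (zpowers x : Set G) := by rw [centralizer_zpowers]; exact h.le_cx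
  obtain ⟨w, hw, hwx, hwp, -, hwc⟩ := PG.exists_step (N := zpowers x) (M := R)
    (H := Q ⊓ normalizer (R : Set G)) (h.pgrp.to_le inf_le_left) (h.pgrp.to_le inf_le_left)
    inf_le_right (le_normalizer_of_le_centralizer (inf_le_left.trans hQx)) hne
  obtain ⟨i, hi⟩ := h4 w hw
  set v := (x ^ i)⁻¹ * w with hv
  have hvR : v ∈ R := R.mul_mem (R.inv_mem (R.pow_mem hxR i)) hw
  have cx : ∀ a ∈ Q, Commute (x ^ i)⁻¹ a := fun a ha =>
    ((show Commute a x from mem_centralizer_singleton_iff.1 (h.le_cx ha)).symm.pow_left i).inv_left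
  have hvc : ∀ a ∈ Q ⊓ normalizer (R : Set G), ⁅v, a⁆ ∈ zpowers x := by
    intro a ha
    have : ⁅v, a⁆ = ⁅w, a⁆ := by
      calc ⁅v, a⁆ = (x ^ i)⁻¹ * (w * a * w⁻¹) * (x ^ i)⁻¹⁻¹ * a⁻¹ := by
            rw [hv, commutatorElement_def]; group
        _ = _ := by
            rw [(cx _ (Q.mul_mem (Q.mul_mem hw.1 ha.1) (Q.inv_mem hw.1))).eq, mul_inv_cancel_right,
              commutatorElement_def]
    rw [this]; exact hwc a ha
  have hov : orderOf v = p := by
    refine orderOf_eq_prime (hdisj _ ?_ (pow_mem hi p)) fun e => hwx ?_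
    · rw [hv, (cx w hw.1).mul_pow]
      exact mul_mem (pow_mem (inv_mem (pow_mem (mem_zpowers x) i)) p) hwp
    · rw [← inv_mul_eq_one.1 e]; exact pow_mem (mem_zpowers x) i
  have hRv : R ≤ Q ⊓ 𝐂[v] := fun r hr => by
    refine mem_inf.2 ⟨hr.1, mem_centralizer_singleton_iff.2 ?_⟩
    obtain ⟨j, hj⟩ := h4 r hr
    have hr' : (x ^ j)⁻¹ * r ∈ R := R.mul_mem (R.inv_mem (R.pow_mem hxR j)) hr
    have c1 : Commute v ((x ^ j)⁻¹ * r) := commutatorElement_eq_one_iff_commute.1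
      (hdisj _ (hvc _ ⟨hr'.1, Subgroup.le_normalizer hr'⟩)
        (mul_mem (mul_mem (mul_mem hi hj) (inv_mem hi)) (inv_mem hj)))
    have c2 : Commute v (x ^ j) :=
      (show Commute v x from mem_centralizer_singleton_iff.1 (h.le_cx hvR.1)).pow_right j
    have := c2.mul_right c1
    rw [mul_inv_cancel_left] at this
    exact this.symm
  have hbad' := h6 v hvR hov hi
  have heq := PG.eq_of_le_of_card_le hRv (hmax v ⟨hvR.1, hov, hbad'⟩)
  obtain ⟨J', a1, a2⟩ := P1.good_of_conj hS h hvR.1 hov hg.1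
    (by rw [← commutatorElement_inv]; exact inv_mem (hvc g hg)) fun e => hgR (heq ▸ mem_inf.2
      ⟨hg.1, mem_centralizer_singleton_iff.2 (commutatorElement_eq_one_iff_commute.1 e)⟩)
  exact hbad' J' a1 a2

theorem P1.isPTerminal (h : MaxTriple p x K Q) : IsPTerminal p x K := by
  refine ⟨h.ord, h.comp, fun y hy hoy => ?_, fun S y hy hc hoy J hJ hle => ?_⟩
  · obtain ⟨T, a1, a2, a3, a4⟩ := Tr.exists_sylowIn_ge
      (isPGroup_zpowers_of_orderOf_eq (k := 1) (by simpa)) (zpowers_le_of_mem hy)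
    have h' := h.of_sylow a3 a2 a4
    have hyT := a1 (mem_zpowers y)
    obtain ⟨J, b1, b2⟩ := P1.good hS h' hyT hoy
    obtain ⟨-, c2, c3, c4⟩ := h'.cover hyT
    obtain ⟨d1, d2, -⟩ := le_sup_of_pqOrder_le b2 ((h.max1 y J hoy b1).trans c4.ge)
    obtain ⟨e1⟩ := nonempty_quotient_equiv_of_le_sup b2 d1 d2
    obtain ⟨e2⟩ := nonempty_quotient_equiv_of_le_sup
      ((pElementClosure_le _).trans inf_le_left) c2 c3
    exact ⟨J, b1, h'.pLayerOf_eq hyT ▸ b2, ⟨e1.symm.trans e2⟩⟩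
  · have h' := h.of_sylow (S.2.map _) (map_subtype_le _) (Tr.not_dvd_relIndex_map_sylow S)
    rw [h'.pLayerOf_eq hy] at hle
    have h1 := h'.le_of_good hy hoy hJ hle
      (le_inf le_rfl fun z hz => mem_centralizer_singleton_iff.2 (hc z hz))
    refine ⟨h1, ?_⟩
    obtain ⟨T, a1, a2, a3, a4⟩ := Tr.exists_sylowIn_ge h'.pgrp h1
    obtain ⟨-, -, d3⟩ := le_sup_of_pqOrder_le hle ((h.max1 y J hoy hJ).trans (h'.cover hy).2.2.2.ge)
    rwa [PG.eq_of_le_of_card_le a1 (h'.max2 y J T hoy hJ (d3.trans (h'.cover hy).2.2.2) a3 a2)]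

end Cfsg.Agent.CT8
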